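import Cfsg.Agent.H568.EP.Num
import Cfsg.Agent.H436.Names
import Cfsg.Agent.H419.EP.Iface
import Cfsg.Agent.H775.EP.ModelOmega
import Cfsg.Agent.H117.EP.ModelPSL
import Cfsg.Agent.H729.EPM.PSp
import Cfsg.Agent.GenOrth.Normal
import Cfsg.Agent.H173.OI.Shape

/-!
# S3499: names and orders of the groups with a `Model` (helper568)
-/

set_option autoImplicit false

namespace Cfsg.Agent.H568.EP

open Cfsg Cfsg.Agent.OrdDiv Cfsg.Agent.H419.EP Cfsg.Agent.H436
open Cfsg.Agent.LieClassical.OrthCore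
open scoped MatrixGroups

/-- two groups with a model over the same matrix group are isomorphic -/
theorem equiv_of_models {Q Q' : Type*} [Group Q] [Group Q'] {ι : Type} [Fintype ι] [DecidableEq ι] {F : Type*} [Field F]
    {S : Subgroup (GL ι F)} (m : Model Q S) (m' : Model Q' S) : Nonempty (Q ≃* Q') := by
  have hk : m.π.ker = m'.π.ker := by
    ext s
    rw [MonoidHom.mem_ker, MonoidHom.mem_ker, m.ker, m'.ker]
  exact ⟨((QuotientGroup.quotientKerEquivOfSurjective m.π m.surj).symm.trans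
    (QuotientGroup.quotientMulEquivOfEq hk)).trans (QuotientGroup.quotientKerEquivOfSurjective m'.π m'.surj)⟩

section
universe u
variable {Q : Type u} [Group Q] {F : Type} [Field F] [Fintype F]

theorem isPP : IsPrimePow (Fintype.card F) := Fintype.isPrimePow_card_of_field

/-! ### names -/

theorem sl_named {n : ℕ} (hn : 2 ≤ n) (h2 : n = 2 → 4 ≤ Fintype.card F)
    (m : Model Q (Cfsg.Geo.specialLinear (Fin n) F)) : IsNamed (.psl n (Fintype.card F)) Q := by
  obtain ⟨m'⟩ := H117.EP.model_PSL (F := F) hn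
  obtain ⟨e⟩ := equiv_of_models m m'
  refine IsNamed.mk' ⟨F, inferInstance, inferInstance, rfl, ⟨e⟩⟩ ⟨hn, h2, isPP⟩ ?_
  rw [Nat.card_congr e.toEquiv]
  exact psl_eq hn

theorem sp_named {k : ℕ} (hk : 2 ≤ k) (h2 : k = 2 → 3 ≤ Fintype.card F)
    (m : Model Q (Cfsg.spGL k F)) : IsNamed (.psp k (Fintype.card F)) Q := by
  obtain ⟨e⟩ := equiv_of_models m (H729.EPM.modelPSp k F)
  refine IsNamed.mk' ⟨F, inferInstance, inferInstance, rfl, ⟨e⟩⟩ ⟨hk, h2, isPP⟩ ?_
  rw [Nat.card_congr e.toEquiv]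
  exact psp_eq hk

theorem su_named {n q : ℕ} (hF : Fintype.card F = q ^ 2) (hn : 3 ≤ n) (h2 : ¬ (n = 3 ∧ q = 2))
    (m : Model Q (Cfsg.GU n F q ⊓ Cfsg.Geo.specialLinear (Fin n) F)) : IsNamed (.psu n q) Q := by
  obtain ⟨m'⟩ := H117.EP.model_PSU (F := F) hF hn
  obtain ⟨e⟩ := equiv_of_models m m'
  have hq : IsPrimePow q := by
    have h1 : IsPrimePow (q ^ 2) := hF ▸ isPP (F := F)
    exact (isPrimePow_pow_iff (by norm_num)).1 h1
  refine IsNamed.mk' ⟨F, inferInstance, inferInstance, hF, ⟨e⟩⟩ ⟨hn, h2, hq⟩ ?_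
  rw [Nat.card_congr e.toEquiv]
  exact psu_eq hF hn

omit [Fintype F] in
/-- the odd standard form is degenerate in characteristic two -/
theorem two_ne_of_sim {V : Type*} [AddCommGroup V] [Module F V] {Q' : QuadraticForm F V} (hQ : Nondeg Q') {k : ℕ}
    (h : GenOrth.Sim Q' (Cfsg.quadFormOdd k F)) : (2 : F) ≠ 0 := by
  intro h2
  obtain ⟨c, hc, j, hj⟩ := h
  have h1 : j (Pi.single (.inl ()) 1) = 0 := by
    apply hQ
    intro y
    obtain ⟨x, rfl⟩ := j.surjective y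
    rw [QuadraticMap.polar, ← map_add, hj, hj, hj]
    have h3 : Cfsg.quadFormOdd k F (Pi.single (.inl ()) 1 + x) = Cfsg.quadFormOdd k F (Pi.single (.inl ()) 1) +
        Cfsg.quadFormOdd k F x := by
      rw [LieClassical.OrthForms.quadFormOdd_apply, LieClassical.OrthForms.quadFormOdd_apply,
        LieClassical.OrthForms.quadFormOdd_apply]
      simp
      linear_combination x (.inl ()) * h2
    rw [h3]
    ring
  have h5 : (Pi.single (.inl ()) 1 : Unit ⊕ (Fin k ⊕ Fin k) → F) = 0 := (map_eq_zero_iff j j.injective).1 h1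
  have h6 := congrFun h5 (.inl ())
  simp at h6

theorem om_named {ι : Type} [Fintype ι] [DecidableEq ι] {Qf : (ι → F) → F} (hQ : Cfsg.Geo.IsNondegenerateQuadraticForm Qf)
    (hn : 7 ≤ Fintype.card ι) (m : Model Q (Cfsg.Geo.omegaGL Qf)) :
    (∃ k, Fintype.card ι = 2 * k + 1 ∧ IsNamed (.oodd k (Fintype.card F)) Q) ∨
    (∃ k, Fintype.card ι = 2 * k ∧ (IsNamed (.oplus k (Fintype.card F)) Q ∨ IsNamed (.ominus k (Fintype.card F)) Q)) := by
  obtain ⟨m'⟩ := H775.EP.model_omega hQ (by omega)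
  obtain ⟨e⟩ := equiv_of_models m m'
  obtain ⟨Q', hQ', hnd⟩ := H883.Bridge.exists_quadraticForm hQ
  subst hQ'
  rcases GenOrth.normal_form (Fintype.card ι) hnd (by rw [Module.finrank_fintype_fun_eq_card]) with ⟨k, hk, hs⟩ | ⟨k, hk, hs⟩ |
    ⟨k, hk, a, b, hab, hs⟩
  · left
    have h2 := two_ne_of_sim hnd hs
    obtain ⟨c, hc, j, hj⟩ := hs
    obtain ⟨f⟩ := H173.OI.pomega_similar (Q := Cfsg.quadFormOdd k F) (Q' := ⇑Q') hc j hj
    have e' := e.trans f.symm
    have ho : Odd (Fintype.card F) := LieClassical.PomegaCard.odd_card_iff.2 h2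
    refine ⟨k, hk, IsNamed.mk' ⟨F, inferInstance, inferInstance, rfl, ⟨e'⟩⟩ ⟨by omega, ho, isPP⟩ ?_⟩
    rw [Nat.card_congr e'.toEquiv]
    exact oodd_eq (by omega) ho
  · right
    obtain ⟨c, hc, j, hj⟩ := hs
    obtain ⟨f⟩ := H173.OI.pomega_similar (Q := Cfsg.quadFormPlus k F) (Q' := ⇑Q') hc j hj
    have e' := e.trans f.symm
    refine ⟨k, hk, Or.inl (IsNamed.mk' ⟨F, inferInstance, inferInstance, rfl, ⟨e'⟩⟩ ⟨by omega, isPP⟩ ?_)⟩
    rw [Nat.card_congr e'.toEquiv]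
    exact oplus_eq (by omega)
  · right
    obtain ⟨c, hc, j, hj⟩ := hs
    obtain ⟨f⟩ := H173.OI.pomega_similar (Q := Cfsg.quadFormMinus k F a b) (Q' := ⇑Q') hc j hj
    have e' := e.trans f.symm
    refine ⟨k + 1, by omega, Or.inr (IsNamed.mk' ⟨F, inferInstance, inferInstance, a, b, rfl, hab, ⟨e'⟩⟩ ⟨by omega, isPP⟩ ?_)⟩
    rw [Nat.card_congr e'.toEquiv]
    exact ominus_eq (m := k + 1) (by omega) hab

end

end Cfsg.Agent.H568.EP
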