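import Cfsg.Agent.H568.EP.NumB
import Cfsg.Agent.H436.Names

/-!
# S3499: lower bounds for the orders of the classical groups (helper568)
-/

set_option autoImplicit false

namespace Cfsg.Agent.H568.EP

open Cfsg Cfsg.Agent.OrdDiv Cfsg.Agent.H436

universe u
variable {Q : Type u} [Group Q]

theorem sum_range_pow {q n : ℕ} : q ^ (∑ i ∈ Finset.range n, i) * q ^ (∑ i ∈ Finset.range (n + 1), i) = q ^ (n ^ 2) := by
  rw [Finset.sum_range_succ, ← pow_add]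
  congr 1
  have := Finset.sum_range_id_mul_two n
  rcases n with _ | n
  · simp
  · rw [Nat.add_sub_cancel] at this
    nlinarith

theorem psl_ge {n q : ℕ} (h : IsNamed (.psl n q) Q) : q ^ (n ^ 2 - 2) ≤ Nat.card Q := by
  have hn : 2 ≤ n := h.cond.1
  have hq : 2 ≤ q := h.cond.2.2.two_le
  have h1 : (Nat.gcd n (q - 1) * (q - 1)) * Nat.card Q = glN n q := h.eq
  have h2 := prG_ge hq (n := n) (by omega)
  have h3 : Nat.gcd n (q - 1) * (q - 1) ≤ (q - 1) ^ 2 := by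
    rw [sq]
    exact Nat.mul_le_mul_right _ (Nat.gcd_le_right _ (by omega))
  have hD : 0 < (q - 1) ^ 2 := Nat.pow_pos (by omega)
  have h4 : q ^ (n ^ 2) = q ^ (n ^ 2 - 2) * q ^ 2 := by
    rw [← pow_add]; congr 1
    have : 2 ≤ n ^ 2 := by nlinarith
    omega
  have h5 : (q ^ (n ^ 2 - 2) * q ^ 2) * (q - 1) ^ 2 ≤ (Nat.card Q * q ^ 2) * (q - 1) ^ 2 := by
    rw [← h4, ← sum_range_pow]
    calc q ^ (∑ i ∈ Finset.range n, i) * q ^ (∑ i ∈ Finset.range (n + 1), i) * (q - 1) ^ 2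
        = q ^ (∑ i ∈ Finset.range n, i) * (q ^ (∑ i ∈ Finset.range (n + 1), i) * (q - 1) ^ 2) := by ring
      _ ≤ q ^ (∑ i ∈ Finset.range n, i) * (prG q n * q ^ 2) := Nat.mul_le_mul_left _ h2
      _ = glN n q * q ^ 2 := by rw [glN_eq]; ring
      _ = (Nat.gcd n (q - 1) * (q - 1)) * Nat.card Q * q ^ 2 := by rw [h1]
      _ ≤ (q - 1) ^ 2 * Nat.card Q * q ^ 2 := Nat.mul_le_mul_right _ (Nat.mul_le_mul_right _ h3)
      _ = (Nat.card Q * q ^ 2) * (q - 1) ^ 2 := by ring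
  exact Nat.le_of_mul_le_mul_right (Nat.le_of_mul_le_mul_right h5 hD) (Nat.pow_pos (by omega))

theorem psu_ge {n q : ℕ} (h : IsNamed (.psu n q) Q) : q ^ (n ^ 2 - 3) ≤ Nat.card Q := by
  have hn : 3 ≤ n := h.cond.1
  have hq : 2 ≤ q := h.cond.2.2.two_le
  have h1 : (Nat.gcd n (q + 1) * (q + 1)) * Nat.card Q = q ^ (n * (n - 1) / 2) * prU q n := h.eq
  rw [← Finset.sum_range_id] at h1
  have h2 := prU_ge' hq (n := n) (by omega)
  have h3 : Nat.gcd n (q + 1) * (q + 1) ≤ (q + 1) ^ 2 := by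
    rw [sq]
    exact Nat.mul_le_mul_right _ (Nat.gcd_le_right _ (by omega))
  have hD : 0 < (q + 1) ^ 2 := Nat.pow_pos (by omega)
  have h4 : q ^ (n ^ 2) = q ^ (n ^ 2 - 3) * q ^ 3 := by
    rw [← pow_add]; congr 1
    have : 3 ≤ n ^ 2 := by nlinarith
    omega
  have h5 : (q ^ (n ^ 2 - 3) * q ^ 3) * (q + 1) ^ 2 ≤ (Nat.card Q * q ^ 3) * (q + 1) ^ 2 := by
    rw [← h4, ← sum_range_pow]
    calc q ^ (∑ i ∈ Finset.range n, i) * q ^ (∑ i ∈ Finset.range (n + 1), i) * (q + 1) ^ 2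
        = q ^ (∑ i ∈ Finset.range n, i) * ((q + 1) ^ 2 * q ^ (∑ i ∈ Finset.range (n + 1), i)) := by ring
      _ ≤ q ^ (∑ i ∈ Finset.range n, i) * (prU q n * q ^ 3) := Nat.mul_le_mul_left _ h2
      _ = q ^ (∑ i ∈ Finset.range n, i) * prU q n * q ^ 3 := by ring
      _ = (Nat.gcd n (q + 1) * (q + 1)) * Nat.card Q * q ^ 3 := by rw [h1]
      _ ≤ (q + 1) ^ 2 * Nat.card Q * q ^ 3 := Nat.mul_le_mul_right _ (Nat.mul_le_mul_right _ h3)
      _ = (Nat.card Q * q ^ 3) * (q + 1) ^ 2 := by ring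
  exact Nat.le_of_mul_le_mul_right (Nat.le_of_mul_le_mul_right h5 hD) (Nat.pow_pos (by omega))

theorem psp_ge {k q : ℕ} (h : IsNamed (.psp k q) Q) : q ^ (k * (2 * k + 1)) ≤ 3 * Nat.card Q := by
  have hq : 2 ≤ q := h.cond.2.2.two_le
  have h1 : Nat.gcd 2 (q - 1) * Nat.card Q = q ^ (k ^ 2) * prB q k := h.eq
  have h2 := prB_ge hq k
  have h3 : Nat.gcd 2 (q - 1) ≤ 2 := Nat.gcd_le_left _ (by norm_num)
  have h4 : 2 * q ^ (k * (2 * k + 1)) ≤ 2 * (3 * Nat.card Q) := by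
    calc 2 * q ^ (k * (2 * k + 1)) = q ^ (k ^ 2) * (2 * q ^ (k * (k + 1))) := by
          rw [mul_left_comm, ← pow_add]; congr 2; ring
      _ ≤ q ^ (k ^ 2) * (3 * prB q k) := Nat.mul_le_mul_left _ h2
      _ = 3 * (q ^ (k ^ 2) * prB q k) := by ring
      _ = 3 * (Nat.gcd 2 (q - 1) * Nat.card Q) := by rw [h1]
      _ ≤ 3 * (2 * Nat.card Q) := Nat.mul_le_mul_left _ (Nat.mul_le_mul_right _ h3)
      _ = 2 * (3 * Nat.card Q) := by ring
  omega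

theorem oodd_ge {k q : ℕ} (h : IsNamed (.oodd k q) Q) : q ^ (k * (2 * k + 1)) ≤ 3 * Nat.card Q := by
  have hq : 2 ≤ q := h.cond.2.2.two_le
  have h1 : 2 * Nat.card Q = q ^ (k ^ 2) * prB q k := h.eq
  have h2 := prB_ge hq k
  have h4 : 2 * q ^ (k * (2 * k + 1)) ≤ 2 * (3 * Nat.card Q) := by
    calc 2 * q ^ (k * (2 * k + 1)) = q ^ (k ^ 2) * (2 * q ^ (k * (k + 1))) := by
          rw [mul_left_comm, ← pow_add]; congr 2; ring
      _ ≤ q ^ (k ^ 2) * (3 * prB q k) := Nat.mul_le_mul_left _ h2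
      _ = 3 * (q ^ (k ^ 2) * prB q k) := by ring
      _ = 2 * (3 * Nat.card Q) := by rw [← h1]; ring
  omega

theorem oplus_aux {k q : ℕ} (h : IsNamed (.oplus k q) Q) :
    q ^ (k * (2 * k - 1)) ≤ 2 * (Nat.gcd 4 (q ^ k - 1) * Nat.card Q) := by
  have hk : 4 ≤ k := h.cond.1
  have hq : 2 ≤ q := h.cond.2.two_le
  have h1 : Nat.gcd 4 (q ^ k - 1) * Nat.card Q = q ^ (k * (k - 1)) * ((q ^ k - 1) * prB q (k - 1)) := h.eq
  have h2 := prB_ge hq (k - 1)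
  have h3 : 3 * q ^ k ≤ 4 * (q ^ k - 1) := by
    have : 2 ^ 4 ≤ q ^ k := (Nat.pow_le_pow_left hq 4).trans (Nat.pow_le_pow_right (by omega) hk)
    omega
  obtain ⟨j, rfl⟩ : ∃ j, k = j + 1 := ⟨k - 1, by omega⟩
  rw [h1]
  have e1 : j + 1 - 1 = j := by omega
  rw [e1] at h2 ⊢
  have h4 : 6 * q ^ ((j + 1) * (2 * (j + 1) - 1)) ≤ 6 * (2 * (q ^ ((j + 1) * j) * ((q ^ (j + 1) - 1) * prB q j))) := by
    calc 6 * q ^ ((j + 1) * (2 * (j + 1) - 1)) = q ^ ((j + 1) * j) * ((3 * q ^ (j + 1)) * (2 * q ^ (j * (j + 1)))) := by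
          have : 2 * (j + 1) - 1 = 2 * j + 1 := by omega
          rw [this, show (j + 1) * (2 * j + 1) = (j + 1) * j + ((j + 1) + j * (j + 1)) by ring, pow_add, pow_add]
          ring
      _ ≤ q ^ ((j + 1) * j) * ((4 * (q ^ (j + 1) - 1)) * (3 * prB q j)) :=
          Nat.mul_le_mul_left _ (Nat.mul_le_mul h3 h2)
      _ = 6 * (2 * (q ^ ((j + 1) * j) * ((q ^ (j + 1) - 1) * prB q j))) := by ring
  omega

theorem ominus_aux {k q : ℕ} (h : IsNamed (.ominus k q) Q) :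
    q ^ (k * (2 * k - 1)) ≤ 2 * (Nat.gcd 4 (q ^ k + 1) * Nat.card Q) := by
  have hk : 4 ≤ k := h.cond.1
  have hq : 2 ≤ q := h.cond.2.two_le
  have h1 : Nat.gcd 4 (q ^ k + 1) * Nat.card Q = q ^ (k * (k - 1)) * ((q ^ k + 1) * prB q (k - 1)) := h.eq
  have h2 := prB_ge hq (k - 1)
  have h3 : 3 * q ^ k ≤ 4 * (q ^ k + 1) := by omega
  obtain ⟨j, rfl⟩ : ∃ j, k = j + 1 := ⟨k - 1, by omega⟩
  rw [h1]
  have e1 : j + 1 - 1 = j := by omega
  rw [e1] at h2 ⊢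
  have h4 : 6 * q ^ ((j + 1) * (2 * (j + 1) - 1)) ≤ 6 * (2 * (q ^ ((j + 1) * j) * ((q ^ (j + 1) + 1) * prB q j))) := by
    calc 6 * q ^ ((j + 1) * (2 * (j + 1) - 1)) = q ^ ((j + 1) * j) * ((3 * q ^ (j + 1)) * (2 * q ^ (j * (j + 1)))) := by
          have : 2 * (j + 1) - 1 = 2 * j + 1 := by omega
          rw [this, show (j + 1) * (2 * j + 1) = (j + 1) * j + ((j + 1) + j * (j + 1)) by ring, pow_add, pow_add]
          ring
      _ ≤ q ^ ((j + 1) * j) * ((4 * (q ^ (j + 1) + 1)) * (3 * prB q j)) :=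
          Nat.mul_le_mul_left _ (Nat.mul_le_mul h3 h2)
      _ = 6 * (2 * (q ^ ((j + 1) * j) * ((q ^ (j + 1) + 1) * prB q j))) := by ring
  omega

theorem gcd_four_odd {x : ℕ} (h : ¬ 2 ∣ x) : Nat.gcd 4 x = 1 := by
  have h1 : Nat.Coprime 2 x := (Nat.Prime.coprime_iff_not_dvd Nat.prime_two).2 h
  have h2 : Nat.Coprime (2 ^ 2) x := Nat.Coprime.pow_left 2 h1
  exact h2

theorem oplus_ge {k q : ℕ} (h : IsNamed (.oplus k q) Q) : q ^ (k * (2 * k - 1)) ≤ 8 * Nat.card Q := by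
  have h1 := oplus_aux h
  have h2 : Nat.gcd 4 (q ^ k - 1) ≤ 4 := Nat.gcd_le_left _ (by norm_num)
  have h3 := Nat.mul_le_mul_right (Nat.card Q) h2
  omega

theorem ominus_ge {k q : ℕ} (h : IsNamed (.ominus k q) Q) : q ^ (k * (2 * k - 1)) ≤ 8 * Nat.card Q := by
  have h1 := ominus_aux h
  have h2 : Nat.gcd 4 (q ^ k + 1) ≤ 4 := Nat.gcd_le_left _ (by norm_num)
  have h3 := Nat.mul_le_mul_right (Nat.card Q) h2
  omega

theorem oplus_ge_even {k q : ℕ} (h : IsNamed (.oplus k q) Q) (h2 : 2 ∣ q) : q ^ (k * (2 * k - 1)) ≤ 2 * Nat.card Q := by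
  have h1 := oplus_aux h
  have hk : 4 ≤ k := h.cond.1
  have hq : 2 ≤ q := h.cond.2.two_le
  have h3 : 2 ∣ q ^ k := dvd_pow h2 (by omega)
  have h4 : 1 ≤ q ^ k := Nat.one_le_pow _ _ (by omega)
  rwa [gcd_four_odd (by omega), one_mul] at h1

theorem ominus_ge_even {k q : ℕ} (h : IsNamed (.ominus k q) Q) (h2 : 2 ∣ q) :
    q ^ (k * (2 * k - 1)) ≤ 2 * Nat.card Q := by
  have h1 := ominus_aux h
  have hk : 4 ≤ k := h.cond.1
  have h3 : 2 ∣ q ^ k := dvd_pow h2 (by omega)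
  rwa [gcd_four_odd (by omega), one_mul] at h1

end Cfsg.Agent.H568.EP
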