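import Cfsg.Agent.OrdDiv.Main

/-!
# S3499: lower bounds for the order polynomials (helper568)
-/

set_option autoImplicit false

namespace Cfsg.Agent.H568.EP

open Cfsg.Agent.OrdDiv

theorem prB_succ (q m : ℕ) : prB q (m + 1) = prB q m * (q ^ (2 * (m + 1)) - 1) := by
  unfold prB
  rw [List.range_succ, List.map_append, List.prod_append]
  simp

theorem prB_aux {q : ℕ} (hq : 2 ≤ q) (m : ℕ) :
    q ^ (m * (m + 1)) * (2 * q ^ (2 * m) + 1) ≤ 3 * prB q m * q ^ (2 * m) := by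
  induction m with
  | zero => simp [prB]
  | succ m ih =>
    rw [prB_succ]
    have e1 : q ^ ((m + 1) * (m + 1 + 1)) = q ^ (m * (m + 1)) * (q ^ (2 * m) * q ^ 2) := by
      rw [← pow_add, ← pow_add]; congr 1; ring
    have e2 : q ^ (2 * (m + 1)) = q ^ (2 * m) * q ^ 2 := by rw [← pow_add]; congr 1
    rw [e1, e2]
    have hX : 1 ≤ q ^ (2 * m) := Nat.one_le_pow _ _ (by omega)
    have hY : 4 ≤ q ^ 2 := by nlinarith
    generalize q ^ (2 * m) = X at *
    generalize q ^ 2 = Y at *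
    generalize q ^ (m * (m + 1)) = R at *
    generalize prB q m = P at *
    obtain ⟨Z, hZ⟩ : ∃ Z, X * Y = Z + 1 := ⟨X * Y - 1, by
      have : 1 ≤ X * Y := Nat.one_le_iff_ne_zero.2 (Nat.mul_ne_zero (by omega) (by omega))
      omega⟩
    rw [hZ, Nat.add_sub_cancel]
    -- R (2 (Z+1) + 1) <= 3 P Z
    have key : R * (2 * (Z + 1) + 1) ≤ 3 * P * Z := by
      have h1 : X * (R * (2 * (Z + 1) + 1)) ≤ X * (3 * P * Z) := by
        have h2 : R * (2 * X + 1) * Z ≤ 3 * P * X * Z := Nat.mul_le_mul_right _ ih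
        have h3 : X * (2 * (Z + 1) + 1) ≤ (2 * X + 1) * Z := by
          have h4 : 3 * X ≤ Z := by
            have h5 : X * 4 ≤ X * Y := Nat.mul_le_mul_left _ hY
            omega
          calc X * (2 * (Z + 1) + 1) = 2 * X * Z + 3 * X := by ring
            _ ≤ 2 * X * Z + Z := Nat.add_le_add_left h4 _
            _ = (2 * X + 1) * Z := by ring
        calc X * (R * (2 * (Z + 1) + 1)) = R * (X * (2 * (Z + 1) + 1)) := by ring
          _ ≤ R * ((2 * X + 1) * Z) := Nat.mul_le_mul_left _ h3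
          _ = R * (2 * X + 1) * Z := by ring
          _ ≤ 3 * P * X * Z := h2
          _ = X * (3 * P * Z) := by ring
      exact Nat.le_of_mul_le_mul_left h1 (by omega)
    calc R * (Z + 1) * (2 * (Z + 1) + 1) = R * (2 * (Z + 1) + 1) * (Z + 1) := by ring
      _ ≤ 3 * P * Z * (Z + 1) := Nat.mul_le_mul_right _ key
      _ = 3 * (P * Z) * (Z + 1) := by ring

theorem prB_ge {q : ℕ} (hq : 2 ≤ q) (m : ℕ) : 2 * q ^ (m * (m + 1)) ≤ 3 * prB q m := by
  have h := prB_aux hq m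
  have hX : 0 < q ^ (2 * m) := Nat.pow_pos (by omega)
  refine Nat.le_of_mul_le_mul_right ?_ hX
  refine le_trans ?_ h
  calc 2 * q ^ (m * (m + 1)) * q ^ (2 * m) = q ^ (m * (m + 1)) * (2 * q ^ (2 * m)) := by ring
    _ ≤ q ^ (m * (m + 1)) * (2 * q ^ (2 * m) + 1) := Nat.mul_le_mul_left _ (Nat.le_succ _)

theorem glN_ge {q : ℕ} (hq : 2 ≤ q) {n : ℕ} (hn : 1 ≤ n) : (q ^ (n - 1)) ^ n ≤ glN n q := by
  unfold glN
  rw [prod_list]
  calc (q ^ (n - 1)) ^ n = ∏ _i ∈ Finset.range n, q ^ (n - 1) := by rw [Finset.prod_const, Finset.card_range]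
    _ ≤ ∏ i ∈ Finset.range n, (q ^ n - q ^ i) := by
      refine Finset.prod_le_prod' fun i hi => ?_
      rw [Finset.mem_range] at hi
      have h1 : q ^ i ≤ q ^ (n - 1) := Nat.pow_le_pow_right (by omega) (by omega)
      have h2 : q ^ n = q * q ^ (n - 1) := by rw [← pow_succ']; congr 1; omega
      have h3 : 2 * q ^ (n - 1) ≤ q * q ^ (n - 1) := Nat.mul_le_mul_right _ hq
      omega

theorem prU_ge {q : ℕ} (hq : 2 ≤ q) (n : ℕ) : q ^ (n * (n - 1) / 2) ≤ prU q n := by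
  unfold prU
  rw [prod_list, ← Finset.sum_range_id, ← Finset.prod_pow_eq_pow_sum]
  refine Finset.prod_le_prod' fun i _ => ?_
  have h1 : q ^ (i + 1) = q * q ^ i := pow_succ' q i
  have h2 : 1 ≤ q ^ i := Nat.one_le_pow _ _ (by omega)
  split
  · nlinarith
  · have h3 : 2 * q ^ i ≤ q * q ^ i := Nat.mul_le_mul_right _ hq
    omega

end Cfsg.Agent.H568.EP
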