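import Cfsg.Agent.H568.EP.Big
import Cfsg.Agent.H568.EP.Bound
import Cfsg.Agent.H419.EP.Big

/-!
# S3499: the four order theorems `OrdLin`, `OrdSp`, `OrdUni`, `OrdOrth` (helper568)
-/

set_option autoImplicit false

namespace Cfsg.Agent.H568.EP

open Cfsg Cfsg.Agent.OrdDiv Cfsg.Agent.H419.EP Cfsg.Agent.H436

theorem ordLin : OrdLin := by
  intro Q _ _ F _ _ n m hn
  exact psl_ge (sl_named (by omega) (by omega) m)

theorem ordSp : OrdSp := by
  intro Q _ _ F _ _ k m hk
  have h := psp_ge (sp_named (by omega) (by omega) m)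
  omega

theorem ordUni : OrdUni := by
  intro Q _ _ F _ _ n q m hF hn
  exact psu_ge (su_named hF (by omega) (by omega) m)

theorem ordOrth : OrdOrth := by
  intro Q _ _ F _ _ ι _ _ Qf m hn hQ
  rcases om_named hQ (by omega) m with ⟨k, hk, h⟩ | ⟨k, hk, h | h⟩
  · have h1 := oodd_ge h
    have h2 : Fintype.card ι * (Fintype.card ι - 1) / 2 = k * (2 * k + 1) := by
      rw [hk, Nat.add_sub_cancel, show (2 * k + 1) * (2 * k) = k * (2 * k + 1) * 2 by ring, Nat.mul_div_cancel _ (by norm_num)]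
    rw [h2]; omega
  · have h1 := oplus_ge h
    have h2 : Fintype.card ι * (Fintype.card ι - 1) / 2 = k * (2 * k - 1) := by
      rw [hk, show (2 * k) * (2 * k - 1) = k * (2 * k - 1) * 2 by ring, Nat.mul_div_cancel _ (by norm_num)]
    rw [h2]; exact h1
  · have h1 := ominus_ge h
    have h2 : Fintype.card ι * (Fintype.card ι - 1) / 2 = k * (2 * k - 1) := by
      rw [hk, show (2 * k) * (2 * k - 1) = k * (2 * k - 1) * 2 by ring, Nat.mul_div_cancel _ (by norm_num)]
    rw [h2]; exact h1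

end Cfsg.Agent.H568.EP
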