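import Cfsg.Agent.H568.EP.Big

/-!
# S3499-V: primes dividing the orders of the orthogonal groups (helper568)
-/

set_option autoImplicit false

namespace Cfsg.Agent.H568.EP

open Cfsg Cfsg.Agent.OrdDiv Cfsg.Agent.H419.EP Cfsg.Agent.H436
open scoped MatrixGroups

theorem exists_of_dvd_prB {s q m : ℕ} (hs : s.Prime) (h : s ∣ prB q m) : ∃ i, 1 ≤ i ∧ i ≤ m ∧ s ∣ q ^ (2 * i) - 1 := by
  induction m with
  | zero =>
    exfalso
    have : s ∣ 1 := by simpa [prB] using h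
    exact hs.one_lt.ne' (Nat.dvd_one.1 this)
  | succ m ih =>
    rw [prB_succ] at h
    rcases (hs.dvd_mul).1 h with h | h
    · obtain ⟨i, h1, h2, h3⟩ := ih h
      exact ⟨i, h1, by omega, h3⟩
    · exact ⟨m + 1, by omega, le_rfl, h⟩

universe u
variable {Q : Type u} [Group Q]

theorem prime_oodd {k q s : ℕ} (h : IsNamed (.oodd k q) Q) (hs : s.Prime) (hd : s ∣ Nat.card Q) (hq : ¬ s ∣ q) :
    ∃ i, 1 ≤ i ∧ i ≤ k ∧ s ∣ q ^ (2 * i) - 1 := by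
  have h1 : 2 * Nat.card Q = q ^ (k ^ 2) * prB q k := h.eq
  have h2 : s ∣ q ^ (k ^ 2) * prB q k := h1 ▸ Dvd.dvd.mul_left hd 2
  rcases (hs.dvd_mul).1 h2 with h3 | h3
  · exact absurd (hs.dvd_of_dvd_pow h3) hq
  · exact exists_of_dvd_prB hs h3

theorem prime_oplus {k q s : ℕ} (h : IsNamed (.oplus k q) Q) (hs : s.Prime) (hd : s ∣ Nat.card Q) (hq : ¬ s ∣ q) :
    s ∣ q ^ k - 1 ∨ ∃ i, 1 ≤ i ∧ i + 1 ≤ k ∧ s ∣ q ^ (2 * i) - 1 := by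
  have hk : 4 ≤ k := h.cond.1
  have h1 : Nat.gcd 4 (q ^ k - 1) * Nat.card Q = q ^ (k * (k - 1)) * ((q ^ k - 1) * prB q (k - 1)) := h.eq
  have h2 : s ∣ q ^ (k * (k - 1)) * ((q ^ k - 1) * prB q (k - 1)) := h1 ▸ Dvd.dvd.mul_left hd _
  rcases (hs.dvd_mul).1 h2 with h3 | h3
  · exact absurd (hs.dvd_of_dvd_pow h3) hq
  · rcases (hs.dvd_mul).1 h3 with h4 | h4
    · exact Or.inl h4
    · obtain ⟨i, h5, h6, h7⟩ := exists_of_dvd_prB hs h4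
      exact Or.inr ⟨i, h5, by omega, h7⟩

theorem prime_ominus {k q s : ℕ} (h : IsNamed (.ominus k q) Q) (hs : s.Prime) (hd : s ∣ Nat.card Q) (hq : ¬ s ∣ q) :
    s ∣ q ^ k + 1 ∨ ∃ i, 1 ≤ i ∧ i + 1 ≤ k ∧ s ∣ q ^ (2 * i) - 1 := by
  have hk : 4 ≤ k := h.cond.1
  have h1 : Nat.gcd 4 (q ^ k + 1) * Nat.card Q = q ^ (k * (k - 1)) * ((q ^ k + 1) * prB q (k - 1)) := h.eq
  have h2 : s ∣ q ^ (k * (k - 1)) * ((q ^ k + 1) * prB q (k - 1)) := h1 ▸ Dvd.dvd.mul_left hd _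
  rcases (hs.dvd_mul).1 h2 with h3 | h3
  · exact absurd (hs.dvd_of_dvd_pow h3) hq
  · rcases (hs.dvd_mul).1 h3 with h4 | h4
    · exact Or.inl h4
    · obtain ⟨i, h5, h6, h7⟩ := exists_of_dvd_prB hs h4
      exact Or.inr ⟨i, h5, by omega, h7⟩

/-- primes dividing the order of `Ω_n(q)` -/
theorem prime_om {F : Type} [Field F] [Fintype F] {ι : Type} [Fintype ι] [DecidableEq ι] {Qf : (ι → F) → F}
    (hQ : Cfsg.Geo.IsNondegenerateQuadraticForm Qf) (hn : 7 ≤ Fintype.card ι) (m : Model Q (Cfsg.Geo.omegaGL Qf)) {s : ℕ}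
    (hs : s.Prime) (hd : s ∣ Nat.card Q) (hq : ¬ s ∣ Fintype.card F) :
    ∃ i, 1 ≤ i ∧ 2 * i ≤ Fintype.card ι ∧ s ∣ Fintype.card F ^ (2 * i) - 1 := by
  rcases om_named hQ hn m with ⟨k, hk, h⟩ | ⟨k, hk, h | h⟩
  · obtain ⟨i, h1, h2, h3⟩ := prime_oodd h hs hd hq
    exact ⟨i, h1, by omega, h3⟩
  · rcases prime_oplus h hs hd hq with h1 | ⟨i, h1, h2, h3⟩
    · refine ⟨k, by omega, by omega, h1.trans ?_⟩
      rw [mul_comm 2 k, pow_mul, ← one_pow 2, Nat.sq_sub_sq]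
      exact Dvd.intro_left _ rfl
    · exact ⟨i, h1, by omega, h3⟩
  · rcases prime_ominus h hs hd hq with h1 | ⟨i, h1, h2, h3⟩
    · refine ⟨k, by omega, by omega, h1.trans ?_⟩
      rw [mul_comm 2 k, pow_mul, ← one_pow 2, Nat.sq_sub_sq]
      exact Dvd.intro _ rfl
    · exact ⟨i, h1, by omega, h3⟩

end Cfsg.Agent.H568.EP
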